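import Cfsg.Agent.H593.IMFrame
import Cfsg.Agent.Blocks.CentralInvolutionCount

/-!
# Signed version of Frame's theorem, rank 3 (helper803, for helper764; variant of H593/IMFrame)

`OF G X z c v k`: `G` is transitive on `X`, `z` is central with `z² = 1`, `c : X → X → ℤ` is `G`-invariant, symmetric, odd under `z`, with
nonzero values `± v i` (`i : Fin 3`), each nonzero value is one orbit of pairs, and `c x y = 0` gives an element of the stabiliser of `x`
moving `y` to `z y`.

`frame`: the permutation character has exactly three odd constituents `χ i`, all of multiplicity one, and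
`8 (∏ f i) D = ∏ |X| k i`, with `D` a square if the degrees `f i` are pairwise distinct.
-/

set_option autoImplicit false
set_option linter.unusedSectionVars false

namespace Cfsg.Agent.H803.Rim

open Cfsg Cfsg.Agent.H593.IMFrame
open scoped ComplexConjugate
open Cfsg.Agent.Characters.Core (isIrr_isCharacter finite_irr exists_nat_comb
  isCharacter_apply_inv classInner_def isIrr_isClassFunction
  classInner_irr_self classInner_irr_ne isIrr_iff_classInner_self
  isIrr_apply_one isIrr_apply_one_ne_zero)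
open Cfsg.Agent.Blocks.CentralInvolutionCount (apply_central_mul apply_eq_or_neg)

universe u

/-- signed rank 3 -/
structure OF (G X : Type u) [Group G] [MulAction G X] (z : G) (c : X → X → ℤ) (v : Fin 3 → ℤ) (k : Fin 3 → ℕ) : Prop where
  trans : MulAction.IsPretransitive G X
  cen : z ∈ Subgroup.center G
  sq : z * z = 1
  inv : ∀ (g : G) x y, c (g • x) (g • y) = c x y
  sym : ∀ x y, c x y = c y x
  neg : ∀ x y, c (z • x) y = - c x y
  tr : ∀ x y x' y', c x y ≠ 0 → c x y = c x' y' → ∃ g : G, g • x = x' ∧ g • y = y'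
  zer : ∀ x y, c x y = 0 → ∃ g : G, g • x = x ∧ g • y = z • y
  val : ∀ x y, c x y ≠ 0 → ∃ i, c x y = v i ∨ c x y = - v i
  pos : ∀ i, 0 < v i
  inj : Function.Injective v
  cnt : ∀ x i, Nat.card {y // c x y = v i} = k i
  kpos : ∀ i, 0 < k i

namespace OF

section basic

variable {G : Type u} [Group G] {X : Type u} [MulAction G X] {z : G} {c : X → X → ℤ} {v : Fin 3 → ℤ} {k : Fin 3 → ℕ}
variable (h : OF G X z c v k)

include h

theorem comm (g : G) : g * z = z * g := Subgroup.mem_center_iff.1 h.cen g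

theorem zz (x : X) : z • z • x = x := by rw [← mul_smul, h.sq, one_smul]

theorem neg_right (x y : X) : c x (z • y) = - c x y := by rw [h.sym, h.neg, h.sym]

theorem smul_z (g : G) (x : X) : g • z • x = z • g • x := by rw [← mul_smul, h.comm, mul_smul]

theorem exists_b (a : X) : ∃ b : Fin 3 → X, ∀ i, c a (b i) = v i := by
  have h1 : ∀ i, ∃ y, c a y = v i := by
    intro i
    have h3 : Nat.card {y // c a y = v i} ≠ 0 := by rw [h.cnt a i]; exact (h.kpos i).ne'
    obtain ⟨⟨y, hy⟩⟩ := (Nat.card_ne_zero.1 h3).1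
    exact ⟨y, hy⟩
  choose b hb using h1
  exact ⟨b, hb⟩

theorem cnt_neg (x : X) (i : Fin 3) : Nat.card {y // c x y = - v i} = k i := by
  rw [← h.cnt x i]
  exact Nat.card_congr ⟨fun y => ⟨z • y.1, by rw [h.neg_right, y.2, neg_neg]⟩,
    fun y => ⟨z • y.1, by rw [h.neg_right, y.2]⟩, fun y => Subtype.ext (h.zz _), fun y => Subtype.ext (h.zz _)⟩

theorem smul_ne (x : X) : z • x ≠ x := by
  intro hx
  obtain ⟨b, hb⟩ := h.exists_b x
  have h1 := h.neg x (b 0)
  rw [hx, hb 0] at h1
  have := h.pos 0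
  omega

theorem sum_cnt [Fintype X] (x : X) (i : Fin 3) (C : ℂ) :
    ∑ y : X, (if c x y = v i then C else 0) = k i * C := by
  classical
  rw [← Finset.sum_filter, Finset.sum_const, nsmul_eq_mul]
  congr 2
  rw [← h.cnt x i, Nat.card_eq_fintype_card, Fintype.card_subtype]

theorem sum_cnt_neg [Fintype X] (x : X) (i : Fin 3) (C : ℂ) :
    ∑ y : X, (if c x y = - v i then C else 0) = k i * C := by
  classical
  rw [← Finset.sum_filter, Finset.sum_const, nsmul_eq_mul]
  congr 2
  rw [← h.cnt_neg x i, Nat.card_eq_fintype_card, Fintype.card_subtype]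

/-- a function of the value of `c` -/
theorem expand {a : X} {b : Fin 3 → X} (hb : ∀ i, c a (b i) = v i) (F : X → X → ℂ) (s : ℂ)
    (hF : ∀ (g : G) x y, F (g • x) (g • y) = F x y) (h0 : ∀ x y, c x y = 0 → F x y = 0)
    (hs : ∀ x y, F x (z • y) = s * F x y) (x y : X) :
    F x y = ∑ i, ((if c x y = v i then F a (b i) else 0) + (if c x y = - v i then s * F a (b i) else 0)) := by
  by_cases hc : c x y = 0
  · rw [h0 x y hc, Finset.sum_eq_zero]
    intro i _
    have := h.pos i
    rw [if_neg (by omega), if_neg (by omega), add_zero]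
  · obtain ⟨j, hj⟩ := h.val x y hc
    have hpj := h.pos j
    rw [Finset.sum_eq_single j]
    · rcases hj with hj | hj
      · rw [if_pos hj, if_neg (by omega), add_zero]
        obtain ⟨g, h1, h2⟩ := h.tr x y a (b j) hc (by rw [hj, hb])
        rw [← h1, ← h2, hF]
      · rw [if_neg (by omega), if_pos hj, zero_add]
        obtain ⟨g, h1, h2⟩ := h.tr x y a (z • b j) hc (by rw [hj, h.neg_right, hb])
        rw [← hs, ← h1, ← h2, hF]
    · intro i _ hij
      have hv : v i ≠ v j := fun hh => hij (h.inj hh)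
      have := h.pos i
      rw [if_neg (by omega), if_neg (by omega), add_zero]
    · intro hh
      exact absurd (Finset.mem_univ _) hh

/-- Invariant even functions, zero where `c = 0`. -/
theorem sum_invariant [Fintype X] {a : X} {b : Fin 3 → X} (hb : ∀ i, c a (b i) = v i) (F : X → X → ℂ)
    (hF : ∀ (g : G) x y, F (g • x) (g • y) = F x y) (h0 : ∀ x y, c x y = 0 → F x y = 0)
    (hs : ∀ x y, F x (z • y) = F x y) :
    ∑ x : X, ∑ y : X, F x y = ∑ i, ((2 * (Nat.card X * k i) : ℕ) : ℂ) * F a (b i) := by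
  classical
  have h1 : ∀ x : X, ∑ y : X, F x y = ∑ i, (2 * (k i : ℂ)) * F a (b i) := by
    intro x
    rw [Finset.sum_congr rfl fun y _ => h.expand hb F 1 hF h0 (fun x y => by rw [one_mul]; exact hs x y) x y,
      Finset.sum_comm]
    refine Finset.sum_congr rfl fun i _ => ?_
    rw [Finset.sum_add_distrib, h.sum_cnt, h.sum_cnt_neg]
    ring
  rw [Finset.sum_congr rfl fun x _ => h1 x, Finset.sum_const, Finset.card_univ, nsmul_eq_mul, Finset.mul_sum]
  refine Finset.sum_congr rfl fun i _ => ?_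
  rw [Nat.card_eq_fintype_card]
  push_cast
  ring

/-- **the count**: three odd orbitals -/
theorem sum_pairs [Fintype G] [Fintype X] [Nonempty X] :
    ∑ g : G, (perm G X g - perm G X (z * g)) * perm G X g = 6 * (Nat.card G : ℂ) := by
  classical
  obtain ⟨a⟩ := ‹Nonempty X›
  obtain ⟨b, hb⟩ := h.exists_b a
  let S : X → X → X → X → ℂ := fun x y x' y' => ∑ g : G, if g • x' = x ∧ g • y' = y then (1 : ℂ) else 0
  have hSe : ∀ x y x' y' x'' y'' : X, (∃ g₀ : G, g₀ • x' = x'' ∧ g₀ • y' = y'') → S x y x' y' = S x y x'' y'' := by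
    rintro x y x' y' x'' y'' ⟨g₀, h1, h2⟩
    refine Fintype.sum_equiv (Equiv.mulRight g₀⁻¹) _ _ fun g => ?_
    have h3 : (Equiv.mulRight g₀⁻¹ g) • x'' = g • x' := by
      rw [Equiv.coe_mulRight, mul_smul, ← h1, inv_smul_smul]
    have h4 : (Equiv.mulRight g₀⁻¹ g) • y'' = g • y' := by
      rw [Equiv.coe_mulRight, mul_smul, ← h2, inv_smul_smul]
    rw [h3, h4]
  have hS0 : ∀ x y x' y' : X, c x y ≠ c x' y' → S x y x' y' = 0 := by
    intro x y x' y' hne
    refine Finset.sum_eq_zero fun g _ => ?_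
    rw [if_neg]
    rintro ⟨h1, h2⟩
    apply hne
    rw [← h1, ← h2, h.inv]
  have hSt : ∀ x' y' : X, ∑ x : X, ∑ y : X, S x y x' y' = Nat.card G := by
    intro x' y'
    have h1 : ∀ x : X, ∑ y : X, S x y x' y' = ∑ g : G, if g • x' = x then (1 : ℂ) else 0 := by
      intro x
      rw [Finset.sum_comm]
      refine Finset.sum_congr rfl fun g _ => ?_
      rw [Finset.sum_eq_single (g • y')]
      · by_cases hx : g • x' = x
        · rw [if_pos ⟨hx, rfl⟩, if_pos hx]
        · rw [if_neg (fun hh => hx hh.1), if_neg hx]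
      · intro y _ hy
        rw [if_neg (fun hh => hy hh.2.symm)]
      · intro hh
        exact absurd (Finset.mem_univ _) hh
    rw [Finset.sum_congr rfl fun x _ => h1 x, Finset.sum_comm]
    have h2 : ∀ g : G, ∑ x : X, (if g • x' = x then (1 : ℂ) else 0) = 1 := fun g => by simp
    rw [Finset.sum_congr rfl fun g _ => h2 g, Finset.sum_const, Finset.card_univ, nsmul_eq_mul, mul_one,
      Nat.card_eq_fintype_card]
  -- expansion of the left hand side
  have h1 : ∀ g : G, (perm G X g - perm G X (z * g)) * perm G X g = ∑ x : X, ∑ y : X,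
      ((if g • x = x ∧ g • y = y then (1 : ℂ) else 0) - (if g • x = x ∧ g • y = z • y then (1 : ℂ) else 0)) := by
    intro g
    rw [perm_eq g, perm_eq (z * g), ← Finset.sum_sub_distrib, mul_comm, Finset.sum_mul_sum]
    refine Finset.sum_congr rfl fun x _ => Finset.sum_congr rfl fun y _ => ?_
    have h2 : (z * g) • y = y ↔ g • y = z • y := by
      rw [mul_smul]
      constructor
      · intro hh
        rw [← h.zz (g • y), hh]
      · intro hh
        rw [hh, h.zz]
    by_cases hx : g • x = x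
    · rw [if_pos hx, one_mul]
      congr 1
      · by_cases hy : g • y = y
        · rw [if_pos hy, if_pos ⟨hx, hy⟩]
        · rw [if_neg hy, if_neg (fun hh => hy hh.2)]
      · by_cases hy : g • y = z • y
        · rw [if_pos (h2.2 hy), if_pos ⟨hx, hy⟩]
        · rw [if_neg (fun hh => hy (h2.1 hh)), if_neg (fun hh => hy hh.2)]
    · rw [if_neg hx, zero_mul, if_neg (fun hh => hx hh.1), if_neg (fun hh => hx hh.1), sub_zero]
  have h2 : ∀ x y : X, S x y x y - S x (z • y) x y = ∑ i, (S x y a (b i) + S x y a (z • b i)) := by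
    intro x y
    by_cases hc : c x y = 0
    · have h3 : S x (z • y) x y = S x y x y := by
        rw [hSe x (z • y) x y x (z • y) (h.zer x y hc)]
        refine Finset.sum_congr rfl fun g _ => ?_
        have h4 : g • z • y = z • y ↔ g • y = y := by
          rw [h.smul_z]
          exact (MulAction.injective z).eq_iff
        rw [h4]
      rw [h3, sub_self, Finset.sum_eq_zero]
      intro i _
      have := h.pos i
      rw [hS0 _ _ _ _ (by rw [hb]; omega), hS0 _ _ _ _ (by rw [h.neg_right, hb]; omega), add_zero]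
    · obtain ⟨j, hj⟩ := h.val x y hc
      have hpj := h.pos j
      rw [hS0 x (z • y) x y (by rw [h.neg_right]; omega), sub_zero, Finset.sum_eq_single j]
      · rcases hj with hj | hj
        · rw [hSe x y x y a (b j) (h.tr x y a (b j) hc (by rw [hj, hb])),
            hS0 x y a (z • b j) (by rw [h.neg_right, hb]; omega), add_zero]
        · rw [hSe x y x y a (z • b j) (h.tr x y a (z • b j) hc (by rw [hj, h.neg_right, hb])),
            hS0 x y a (b j) (by rw [hb]; omega), zero_add]
      · intro i _ hij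
        have hv : v i ≠ v j := fun hh => hij (h.inj hh)
        have := h.pos i
        rw [hS0 _ _ _ _ (by rw [hb]; omega), hS0 _ _ _ _ (by rw [h.neg_right, hb]; omega), add_zero]
      · intro hh
        exact absurd (Finset.mem_univ _) hh
  rw [Finset.sum_congr rfl fun g _ => h1 g, Finset.sum_comm]
  have h3 : ∀ x : X, ∑ g : G, ∑ y : X, ((if g • x = x ∧ g • y = y then (1 : ℂ) else 0) -
      (if g • x = x ∧ g • y = z • y then (1 : ℂ) else 0)) = ∑ y : X, ∑ i, (S x y a (b i) + S x y a (z • b i)) := by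
    intro x
    rw [Finset.sum_comm]
    refine Finset.sum_congr rfl fun y _ => ?_
    rw [Finset.sum_sub_distrib, ← h2 x y]
  rw [Finset.sum_congr rfl fun x _ => h3 x]
  have h4 : ∀ x : X, ∑ y : X, ∑ i, (S x y a (b i) + S x y a (z • b i)) =
      ∑ i, (∑ y : X, S x y a (b i) + ∑ y : X, S x y a (z • b i)) := by
    intro x
    rw [Finset.sum_comm]
    exact Finset.sum_congr rfl fun i _ => Finset.sum_add_distrib
  rw [Finset.sum_congr rfl fun x _ => h4 x, Finset.sum_comm]
  have h5 : ∀ i : Fin 3, ∑ x : X, (∑ y : X, S x y a (b i) + ∑ y : X, S x y a (z • b i)) = 2 * (Nat.card G : ℂ) := by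
    intro i
    rw [Finset.sum_add_distrib, hSt, hSt]
    ring
  rw [Finset.sum_congr rfl fun i _ => h5 i, Finset.sum_const, Finset.card_univ, Fintype.card_fin, nsmul_eq_mul]
  push_cast
  ring

end basic

section chars

variable {G : Type u} [Group G] [Fintype G] {X : Type u} [MulAction G X] {z : G} {c : X → X → ℤ} {v : Fin 3 → ℤ}
  {k : Fin 3 → ℕ} (h : OF G X z c v k)

include h

theorem apply_z_mul {χ : G → ℂ} (hχ : IsIrrCharacter G χ) (hz : χ z = - χ 1) (g : G) : χ (z * g) = - χ g := by
  have h1 := apply_central_mul hχ h.comm g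
  have h2 := isIrr_apply_one_ne_zero hχ
  rw [hz] at h1
  apply mul_right_cancel₀ h2
  rw [h1]
  ring

theorem apply_z_mul' {χ : G → ℂ} (hχ : IsIrrCharacter G χ) (hz : ¬ χ z = - χ 1) (g : G) : χ (z * g) = χ g := by
  have h0 := (apply_eq_or_neg hχ h.comm h.sq).resolve_right hz
  have h1 := apply_central_mul hχ h.comm g
  have h2 := isIrr_apply_one_ne_zero hχ
  rw [h0] at h1
  apply mul_right_cancel₀ h2
  rw [h1]
  ring

theorem E_neg [DecidableEq X] {χ : G → ℂ} (hχ : IsIrrCharacter G χ) (hz : χ z = - χ 1) (x y : X) :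
    E χ (z • x) y = - E χ x y := by
  unfold E
  rw [← mul_neg, ← Finset.sum_neg_distrib]
  congr 1
  refine Fintype.sum_equiv (Equiv.mulLeft z) _ _ fun g => ?_
  rw [Equiv.coe_mulLeft, h.apply_z_mul hχ hz, map_neg, mul_smul]
  have h1 : g • y = z • x ↔ z • g • y = x := by
    constructor
    · intro hh
      rw [hh, h.zz]
    · intro hh
      rw [← hh, h.zz]
  by_cases hc : g • y = z • x
  · rw [if_pos hc, if_pos (h1.1 hc), neg_neg]
  · rw [if_neg hc, if_neg (fun hh => hc (h1.2 hh)), neg_zero]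

theorem E_neg_right [Fintype X] [DecidableEq X] {χ : G → ℂ} (hχ : IsIrrCharacter G χ) (hz : χ z = - χ 1) (x y : X) :
    E χ x (z • y) = - E χ x y := by
  have h1 := E_smul (isIrr_isClassFunction hχ) z (z • x) y
  rw [h.zz] at h1
  rw [h1, h.E_neg hχ hz]

theorem E_zero [Fintype X] [DecidableEq X] {χ : G → ℂ} (hχ : IsIrrCharacter G χ) (hz : χ z = - χ 1) {x y : X} (hc : c x y = 0) :
    E χ x y = 0 := by
  obtain ⟨g, h1, h2⟩ := h.zer x y hc
  have h3 := E_smul (isIrr_isClassFunction hχ) g x y
  rw [h1, h2, h.E_neg_right hχ hz] at h3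
  have h4 : (2 : ℂ) * E χ x y = 0 := by linear_combination -h3
  exact (mul_eq_zero.1 h4).resolve_left two_ne_zero

/-- the odd constituents -/
theorem exists_mult [Fintype X] [Nonempty X] [Fintype (IrrCharacter G)] :
    ∃ m : IrrCharacter G → ℕ, perm G X = ∑ ψ : IrrCharacter G, m ψ • (ψ : G → ℂ) ∧
      (∀ χ : IrrCharacter G, (χ : G → ℂ) z = - (χ : G → ℂ) 1 → m χ ≤ 1) ∧
      (∑ χ : IrrCharacter G, open scoped Classical in if (χ : G → ℂ) z = - (χ : G → ℂ) 1 then m χ else 0) = 3 := by
  classical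
  obtain ⟨m, hm⟩ := exists_nat_comb (Cfsg.Agent.S0157.isCharacter_fixedBy (G := G) X)
  have hm' : perm G X = ∑ ψ : IrrCharacter G, m ψ • (ψ : G → ℂ) := hm
  have hG : (Nat.card G : ℂ) ≠ 0 := Cfsg.Agent.Characters.Core.card_ne_zero_complex
  have hperm : ∀ g : G, perm G X g = ∑ ψ : IrrCharacter G, (m ψ : ℂ) * (ψ : G → ℂ) g := by
    intro g
    rw [hm', Finset.sum_apply]
    exact Finset.sum_congr rfl fun ψ _ => by rw [Pi.smul_apply, nsmul_eq_mul]
  let e : IrrCharacter G → ℂ := fun χ => if (χ : G → ℂ) z = - (χ : G → ℂ) 1 then 1 else 0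
  have hdiff : (fun g => perm G X g - perm G X (z * g)) =
      ∑ ψ : IrrCharacter G, (2 * (m ψ : ℂ) * e ψ) • (ψ : G → ℂ) := by
    funext g
    rw [hperm, hperm, ← Finset.sum_sub_distrib, Finset.sum_apply]
    refine Finset.sum_congr rfl fun ψ _ => ?_
    rw [Pi.smul_apply, smul_eq_mul]
    by_cases hc : (ψ : G → ℂ) z = - (ψ : G → ℂ) 1
    · rw [h.apply_z_mul ψ.2 hc, show e ψ = 1 from if_pos hc]
      ring
    · rw [h.apply_z_mul' ψ.2 hc, show e ψ = 0 from if_neg hc]
      ring
  have h1 : classInner (fun g => perm G X g - perm G X (z * g)) (perm G X) = 6 := by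
    rw [classInner_def]
    have h2 := h.sum_pairs (G := G)
    rw [show (∑ g : G, (perm G X g - perm G X (z * g)) * conj (perm G X g)) = 6 * (Nat.card G : ℂ) by
      rw [← h2]
      exact Finset.sum_congr rfl fun g _ => by rw [conj_perm]]
    field_simp
  have h2 : classInner (fun g => perm G X g - perm G X (z * g)) (perm G X) =
      ∑ χ : IrrCharacter G, (2 * (m χ : ℂ) * e χ) * (m χ : ℂ) := by
    have h4 := Cfsg.Agent.Characters.Core.classInner_sum_smul_sum_smul (G := G)
      (fun χ => 2 * (m χ : ℂ) * e χ) (fun χ => (m χ : ℂ))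
    have h5 : perm G X = ∑ ψ : IrrCharacter G, (m ψ : ℂ) • (ψ : G → ℂ) := by
      rw [hm']
      exact Finset.sum_congr rfl fun ψ _ => by rw [Nat.cast_smul_eq_nsmul]
    rw [hdiff, h5, h4]
    exact Finset.sum_congr rfl fun χ _ => by rw [Complex.conj_natCast]
  have h3 : ∑ χ : IrrCharacter G, (if (χ : G → ℂ) z = - (χ : G → ℂ) 1 then m χ * m χ else 0) = 3 := by
    have h4 : ((∑ χ : IrrCharacter G, (if (χ : G → ℂ) z = - (χ : G → ℂ) 1 then m χ * m χ else 0) : ℕ) : ℂ) * 2 = 6 := by
      rw [← h1, h2, Nat.cast_sum, Finset.sum_mul]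
      refine Finset.sum_congr rfl fun χ _ => ?_
      by_cases hc : (χ : G → ℂ) z = - (χ : G → ℂ) 1
      · rw [if_pos hc, show e χ = 1 from if_pos hc]
        push_cast
        ring
      · rw [if_neg hc, show e χ = 0 from if_neg hc]
        push_cast
        ring
    have h5 : (∑ χ : IrrCharacter G, (if (χ : G → ℂ) z = - (χ : G → ℂ) 1 then m χ * m χ else 0)) * 2 = 6 := by
      exact_mod_cast h4
    omega
  have hle : ∀ χ : IrrCharacter G, (χ : G → ℂ) z = - (χ : G → ℂ) 1 → m χ ≤ 1 := by
    intro χ hχ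
    have h4 := Finset.single_le_sum (f := fun χ : IrrCharacter G =>
      (if (χ : G → ℂ) z = - (χ : G → ℂ) 1 then m χ * m χ else 0)) (fun _ _ => Nat.zero_le _) (Finset.mem_univ χ)
    rw [h3] at h4
    simp only [if_pos hχ] at h4
    by_contra hcon
    push Not at hcon
    nlinarith
  refine ⟨m, hm', hle, ?_⟩
  rw [← h3]
  refine Finset.sum_congr rfl fun χ _ => ?_
  by_cases hc : (χ : G → ℂ) z = - (χ : G → ℂ) 1
  · rw [if_pos hc, if_pos hc]
    have := hle χ hc
    interval_cases (m χ) <;> simp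
  · rw [if_neg hc, if_neg hc]

end chars

end OF

section main

variable {G : Type u} [Group G] {X : Type u} [MulAction G X] {z : G} {c : X → X → ℤ} {v : Fin 3 → ℤ}
  {k : Fin 3 → ℕ}

/-- **Frame's theorem, signed, rank 3** -/
theorem frame [Fintype G] [Fintype X] [Nonempty X] (h : OF G X z c v k) :
    ∃ (χ : Fin 3 → IrrCharacter G) (D : ℕ), Function.Injective χ ∧
      (∀ i, (χ i : G → ℂ) z = - (χ i : G → ℂ) 1) ∧
      (∀ ψ : IrrCharacter G, (ψ : G → ℂ) z = - (ψ : G → ℂ) 1 → classInner (perm G X) (ψ : G → ℂ) ≠ 0 → ∃ i, χ i = ψ) ∧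
      2 * ∑ i, charDegree (χ i : G → ℂ) = Nat.card X ∧
      8 * ((∏ i, charDegree (χ i : G → ℂ)) * D) = ∏ i, (Nat.card X * k i) ∧
      (Function.Injective (fun i => charDegree (χ i : G → ℂ)) → IsSquare D) := by
  classical
  have hfin := finite_irr (G := G)
  have := Fintype.ofFinite (IrrCharacter G)
  obtain ⟨a⟩ := ‹Nonempty X›
  have : Nonempty X := ⟨a⟩
  obtain ⟨b, hb⟩ := h.exists_b a
  obtain ⟨m, hm, hm1, hmr⟩ := h.exists_mult
  have hinner : ∀ χ : IrrCharacter G, classInner (perm G X) (χ : G → ℂ) = m χ := by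
    intro χ
    rw [hm]
    exact Cfsg.Agent.Characters.Core.classInner_sum_nsmul_irr m χ
  set S : Finset (IrrCharacter G) :=
    Finset.univ.filter (fun χ => (χ : G → ℂ) z = - (χ : G → ℂ) 1 ∧ m χ = 1) with hS
  have hcard : S.card = 3 := by
    rw [← hmr, Finset.card_filter]
    refine Finset.sum_congr rfl fun χ _ => ?_
    by_cases hc : (χ : G → ℂ) z = - (χ : G → ℂ) 1
    · have := hm1 χ hc
      rw [if_pos hc]
      interval_cases hmm : (m χ)
      · rw [if_neg (fun hh => absurd hh.2 zero_ne_one)]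
      · rw [if_pos ⟨hc, rfl⟩]
    · rw [if_neg hc, if_neg (fun hh => hc hh.1)]
  let e : Fin 3 ≃ S := (S.equivFinOfCardEq hcard).symm
  let χ : Fin 3 → IrrCharacter G := fun i => (e i : IrrCharacter G)
  have hχinj : Function.Injective χ := fun i j hij => e.injective (Subtype.ext hij)
  have hχz : ∀ i, (χ i : G → ℂ) z = - (χ i : G → ℂ) 1 := fun i => (Finset.mem_filter.1 (e i).2).2.1
  have hχm : ∀ i, m (χ i) = 1 := fun i => (Finset.mem_filter.1 (e i).2).2.2
  have hχsurj : ∀ ψ : IrrCharacter G, (ψ : G → ℂ) z = - (ψ : G → ℂ) 1 → m ψ = 1 → ∃ i, χ i = ψ := by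
    intro ψ hψz hψ
    exact ⟨e.symm ⟨ψ, Finset.mem_filter.2 ⟨Finset.mem_univ _, hψz, hψ⟩⟩, by simp [χ]⟩
  have hχsurj' : ∀ ψ : IrrCharacter G, (ψ : G → ℂ) z = - (ψ : G → ℂ) 1 → classInner (perm G X) (ψ : G → ℂ) ≠ 0 →
      ∃ i, χ i = ψ := by
    intro ψ hψz hψ
    rw [hinner] at hψ
    have h1 := hm1 ψ hψz
    have h2 : m ψ ≠ 0 := fun h0 => hψ (by rw [h0, Nat.cast_zero])
    exact hχsurj ψ hψz (by omega)
  -- the matrix
  let Q : Matrix (Fin 3) (Fin 3) ℂ := fun s i => E (χ s : G → ℂ) a (b i)
  let N : Fin 3 → ℕ := fun i => 2 * (Nat.card X * k i)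
  have hgram : Q * Matrix.diagonal (fun i => (N i : ℂ)) * Q.conjTranspose =
      Matrix.diagonal (fun s => (charDegree (χ s : G → ℂ) : ℂ)) := by
    ext s t
    rw [Matrix.mul_apply]
    have h1 : ∀ i, (Q * Matrix.diagonal (fun i => (N i : ℂ))) s i * Q.conjTranspose i t =
        (N i : ℂ) * (E (χ s : G → ℂ) a (b i) * conj (E (χ t : G → ℂ) a (b i))) := by
      intro i
      rw [Matrix.mul_diagonal, Matrix.conjTranspose_apply]
      show E (χ s : G → ℂ) a (b i) * (N i : ℂ) * conj (E (χ t : G → ℂ) a (b i)) = _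
      ring
    rw [Finset.sum_congr rfl fun i _ => h1 i]
    have h2 := h.sum_invariant hb (fun x y => E (χ s : G → ℂ) x y * conj (E (χ t : G → ℂ) x y))
      (fun g x y => by
        rw [E_smul (isIrr_isClassFunction (χ s).2), E_smul (isIrr_isClassFunction (χ t).2)])
      (fun x y hc => by rw [h.E_zero (χ s).2 (hχz s) hc, zero_mul])
      (fun x y => by
        rw [h.E_neg_right (χ s).2 (hχz s), h.E_neg_right (χ t).2 (hχz t), map_neg, neg_mul_neg])
    rw [← h2, E_gram]
    by_cases hst : s = t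
    · subst hst
      rw [if_pos rfl, Matrix.diagonal_apply_eq, hinner, hχm, Nat.cast_one, mul_one,
        charDegree_eq (χ s).2]
    · rw [if_neg (fun hh => hst (hχinj hh)), Matrix.diagonal_apply_ne _ hst]
  have hdeg0 : ∀ s, (charDegree (χ s : G → ℂ) : ℂ) ≠ 0 := fun s => by
    rw [charDegree_eq (χ s).2]
    exact isIrr_apply_one_ne_zero (χ s).2
  have hdet : Q.det * (∏ i, (N i : ℂ)) * conj Q.det = ∏ s, (charDegree (χ s : G → ℂ) : ℂ) := by
    have h1 := congrArg Matrix.det hgram
    rw [Matrix.det_mul, Matrix.det_mul, Matrix.det_diagonal, Matrix.det_diagonal,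
      Matrix.det_conjTranspose] at h1
    exact h1
  have hprod0 : (∏ s, (charDegree (χ s : G → ℂ) : ℂ)) ≠ 0 :=
    Finset.prod_ne_zero_iff.2 fun s _ => hdeg0 s
  have hQ0 : Q.det ≠ 0 := by
    intro h0
    rw [h0, zero_mul, zero_mul] at hdet
    exact hprod0 hdet.symm
  have hQu : IsUnit Q.det := isUnit_iff_ne_zero.2 hQ0
  let P : Matrix (Fin 3) (Fin 3) ℂ := Q⁻¹
  have hPQ : P * Q = 1 := Matrix.nonsing_inv_mul Q hQu
  -- the signed kernel of the orbital
  have hA : ∀ i x y, (if c x y = v i then (1 : ℂ) else 0) - (if c x y = - v i then (1 : ℂ) else 0) =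
      ∑ s, P i s * E (χ s : G → ℂ) x y := by
    intro i x y
    have h1 : ∀ s, E (χ s : G → ℂ) x y = ∑ j, ((if c x y = v j then Q s j else 0) +
        (if c x y = - v j then -1 * Q s j else 0)) := fun s =>
      h.expand hb (fun x y => E (χ s : G → ℂ) x y) (-1)
        (fun g x y => E_smul (isIrr_isClassFunction (χ s).2) g x y)
        (fun x y hc => h.E_zero (χ s).2 (hχz s) hc)
        (fun x y => by rw [h.E_neg_right (χ s).2 (hχz s)]; ring) x y
    have h2 : ∀ j, ∑ s, P i s * Q s j = (1 : Matrix (Fin 3) (Fin 3) ℂ) i j := by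
      intro j
      rw [← hPQ, Matrix.mul_apply]
    have h3 : ∑ s, P i s * E (χ s : G → ℂ) x y = ∑ j, ((if c x y = v j then (1 : Matrix (Fin 3) (Fin 3) ℂ) i j else 0) -
        (if c x y = - v j then (1 : Matrix (Fin 3) (Fin 3) ℂ) i j else 0)) := by
      simp only [h1, Finset.mul_sum]
      rw [Finset.sum_comm]
      refine Finset.sum_congr rfl fun j _ => ?_
      rw [← h2 j]
      by_cases hj : c x y = v j
      · have hpj := h.pos j
        simp only [if_pos hj, if_neg (show ¬ c x y = - v j by omega), add_zero, sub_zero]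
      · by_cases hj' : c x y = - v j
        · simp only [if_neg hj, if_pos hj', zero_add, zero_sub]
          rw [← Finset.sum_neg_distrib]
          exact Finset.sum_congr rfl fun s _ => by ring
        · simp only [if_neg hj, if_neg hj', add_zero, sub_zero, mul_zero, Finset.sum_const_zero]
    rw [h3, Finset.sum_eq_single i]
    · rw [Matrix.one_apply_eq]
    · intro j _ hji
      rw [Matrix.one_apply_ne (Ne.symm hji)]
      simp
    · intro hh
      exact absurd (Finset.mem_univ _) hh
  have hAE' : ∀ i s x w, ∑ y : X, ((if c x y = v i then (1 : ℂ) else 0) - (if c x y = - v i then (1 : ℂ) else 0)) *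
      E (χ s : G → ℂ) y w = P i s * E (χ s : G → ℂ) x w := by
    intro i s x w
    simp only [hA, Finset.sum_mul]
    rw [Finset.sum_comm, Finset.sum_eq_single s]
    · have h1 := E_mul (χ s) (χ s) x w
      rw [if_pos rfl] at h1
      rw [← h1, Finset.mul_sum]
      exact Finset.sum_congr rfl fun y _ => by ring
    · intro t _ ht
      have h1 := E_mul (χ t) (χ s) x w
      rw [if_neg (fun hh => ht (hχinj hh))] at h1
      have h2 : ∑ y : X, P i t * E (χ t : G → ℂ) x y * E (χ s : G → ℂ) y w =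
          P i t * ∑ y : X, E (χ t : G → ℂ) x y * E (χ s : G → ℂ) y w := by
        rw [Finset.mul_sum]
        exact Finset.sum_congr rfl fun y _ => by ring
      rw [h2, h1, mul_zero]
    · intro hh
      exact absurd (Finset.mem_univ _) hh
  have hAE : ∀ i s x w, ∑ y : X, (if c x y = v i then (1 : ℂ) else 0) * E (χ s : G → ℂ) y w =
      P i s / 2 * E (χ s : G → ℂ) x w := by
    intro i s x w
    have h1 := hAE' i s x w
    simp only [sub_mul, Finset.sum_sub_distrib] at h1
    have h2 : ∑ y : X, (if c x y = - v i then (1 : ℂ) else 0) * E (χ s : G → ℂ) y w =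
        - ∑ y : X, (if c x y = v i then (1 : ℂ) else 0) * E (χ s : G → ℂ) y w := by
      rw [← Finset.sum_neg_distrib]
      refine Fintype.sum_equiv (MulAction.toPerm z) _ _ fun y => ?_
      rw [MulAction.toPerm_apply, h.neg_right, h.E_neg (χ s).2 (hχz s)]
      by_cases hc : c x y = - v i
      · rw [if_pos hc, if_pos (by rw [hc, neg_neg])]
        ring
      · rw [if_neg hc, if_neg (fun hh => hc (by rw [← hh, neg_neg]))]
        ring
    rw [h2] at h1
    linear_combination h1 / 2
  -- the kernels do not vanish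
  have hE0 : ∀ s, E (χ s : G → ℂ) a a ≠ 0 := by
    intro s h0
    have h1 := E_trace (X := X) (χ s)
    have h2 : ∀ x : X, E (χ s : G → ℂ) x x = 0 := by
      intro x
      have := h.trans
      obtain ⟨g, rfl⟩ := MulAction.exists_smul_eq G a x
      rw [E_smul (isIrr_isClassFunction (χ s).2), h0]
    rw [Finset.sum_congr rfl fun x _ => h2 x, Finset.sum_const_zero, hinner, hχm, Nat.cast_one,
      mul_one] at h1
    exact isIrr_apply_one_ne_zero (χ s).2 h1.symm
  let P' : Matrix (Fin 3) (Fin 3) ℂ := fun i s => P i s / 2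
  have hPint : ∀ i s, IsIntegral ℤ (P' i s) := by
    intro i s
    let L : Submodule ℤ ℂ := Submodule.span ℤ (Set.range fun x : X => E (χ s : G → ℂ) x a)
    refine isIntegral_of_smul_mem_submodule L ?_ ?_ _ ?_
    · intro hL
      have h1 : E (χ s : G → ℂ) a a ∈ L := Submodule.subset_span ⟨a, rfl⟩
      rw [hL, Submodule.mem_bot] at h1
      exact hE0 s h1
    · exact Submodule.fg_span (Set.finite_range _)
    · intro n hn
      induction hn using Submodule.span_induction with
      | mem n hn =>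
        obtain ⟨x, rfl⟩ := hn
        show (P i s / 2) • E (χ s : G → ℂ) x a ∈ L
        rw [smul_eq_mul, ← hAE i s x a]
        refine Submodule.sum_mem _ fun y _ => ?_
        by_cases hc : c x y = v i
        · rw [if_pos hc, one_mul]
          exact Submodule.subset_span ⟨y, rfl⟩
        · rw [if_neg hc, zero_mul]
          exact Submodule.zero_mem _
      | zero => rw [smul_zero]; exact Submodule.zero_mem _
      | add u v _ _ hu hv => rw [smul_add]; exact Submodule.add_mem _ hu hv
      | smul c u _ hu =>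
        rw [smul_comm]
        exact Submodule.smul_mem _ c hu
  have hPP' : P = (2 : ℂ) • P' := by
    ext i s
    rw [Matrix.smul_apply, smul_eq_mul]
    show P i s = 2 * (P i s / 2)
    ring
  have hPdet8 : P.det = 8 * P'.det := by
    rw [hPP', Matrix.det_smul, Fintype.card_fin]
    norm_num
  have hPdet : IsIntegral ℤ P'.det := IsIntegral.det hPint
  have hPQdet : P.det * Q.det = 1 := by rw [← Matrix.det_mul, hPQ, Matrix.det_one]
  -- the integer `D`
  have hz : (∏ s, (charDegree (χ s : G → ℂ) : ℂ)) * (P.det * conj P.det) = ∏ i, (N i : ℂ) := by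
    rw [← hdet]
    have h1 : conj P.det * conj Q.det = 1 := by rw [← map_mul, hPQdet, map_one]
    calc Q.det * (∏ i, (N i : ℂ)) * conj Q.det * (P.det * conj P.det) =
        (P.det * Q.det) * (conj P.det * conj Q.det) * ∏ i, (N i : ℂ) := by ring
      _ = ∏ i, (N i : ℂ) := by rw [hPQdet, h1, one_mul, one_mul]
  have hN : ∏ i, (N i : ℂ) = 8 * ∏ i, ((Nat.card X * k i : ℕ) : ℂ) := by
    show ∏ i, ((2 * (Nat.card X * k i) : ℕ) : ℂ) = _
    simp only [Nat.cast_mul, Finset.prod_mul_distrib, Finset.prod_const, Finset.card_univ, Fintype.card_fin]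
    norm_num
  have hz' : 8 * ((∏ s, (charDegree (χ s : G → ℂ) : ℂ)) * (P'.det * conj P'.det)) =
      ∏ i, ((Nat.card X * k i : ℕ) : ℂ) := by
    rw [hN, hPdet8, map_mul] at hz
    have h8 : conj (8 : ℂ) = 8 := by
      have := Complex.conj_natCast 8
      simpa using this
    rw [h8] at hz
    have h9 : (8 : ℂ) * (8 * ((∏ s, (charDegree (χ s : G → ℂ) : ℂ)) * (P'.det * conj P'.det))) =
        8 * ∏ i, ((Nat.card X * k i : ℕ) : ℂ) := by
      rw [← hz]
      ring
    exact mul_left_cancel₀ (by norm_num) h9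
  have hzrat : P'.det * conj P'.det =
      (((∏ i, ((Nat.card X * k i : ℕ) : ℚ)) / (8 * ∏ s, (charDegree (χ s : G → ℂ) : ℚ)) : ℚ) : ℂ) := by
    rw [Rat.cast_div, Rat.cast_mul, Rat.cast_prod, Rat.cast_prod]
    simp only [Rat.cast_natCast, Rat.cast_ofNat]
    rw [← hz', eq_div_iff (mul_ne_zero (by norm_num) hprod0)]
    ring
  obtain ⟨D', hD'⟩ := Cfsg.Agent.Characters.GaloisBasic.exists_int_of_isIntegral
    (hPdet.mul (hPdet.map (Complex.conjAe.toAlgHom.restrictScalars ℤ))) ⟨_, hzrat⟩
  have hDz : P'.det * conj P'.det = (D' : ℂ) := hD'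
  have hD0 : 0 ≤ D' := by
    have h1 : P'.det * conj P'.det = ((Complex.normSq P'.det : ℝ) : ℂ) := Complex.mul_conj _
    rw [hDz] at h1
    have h2 : (D' : ℝ) = Complex.normSq P'.det := by exact_mod_cast h1
    have h3 : (0 : ℝ) ≤ D' := by rw [h2]; exact Complex.normSq_nonneg _
    exact_mod_cast h3
  lift D' to ℕ using hD0 with D hDD
  refine ⟨χ, D, hχinj, hχz, hχsurj', ?_, ?_, ?_⟩
  · -- the degrees
    have hpermf : ∀ g : G, perm G X g = ∑ ψ : IrrCharacter G, (m ψ : ℂ) * (ψ : G → ℂ) g := by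
      intro g
      rw [hm, Finset.sum_apply]
      exact Finset.sum_congr rfl fun ψ _ => by rw [Pi.smul_apply, nsmul_eq_mul]
    have h1 : perm G X 1 = Nat.card X := by
      unfold perm
      rw [MulAction.fixedBy_one_eq_univ, Nat.card_coe_set_eq, Set.ncard_univ]
    have h2 : perm G X z = 0 := by
      unfold perm
      rw [Nat.cast_eq_zero, Nat.card_eq_zero]
      left
      exact ⟨fun x => h.smul_ne x.1 x.2⟩
    have h3 : (Nat.card X : ℂ) = ∑ ψ : IrrCharacter G,
        (if (ψ : G → ℂ) z = - (ψ : G → ℂ) 1 ∧ m ψ = 1 then 2 * (ψ : G → ℂ) 1 else 0) := by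
      have h5 : (Nat.card X : ℂ) = perm G X 1 - perm G X z := by rw [h1, h2, sub_zero]
      rw [h5, hpermf, hpermf, ← Finset.sum_sub_distrib]
      refine Finset.sum_congr rfl fun ψ _ => ?_
      by_cases hc : (ψ : G → ℂ) z = - (ψ : G → ℂ) 1
      · have h4 := hm1 ψ hc
        interval_cases hmm : (m ψ)
        · rw [if_neg (fun hh => absurd hh.2 zero_ne_one)]
          simp
        · rw [if_pos ⟨hc, rfl⟩, hc]
          push_cast
          ring
      · rw [if_neg (fun hh => hc hh.1)]
        have h4 := (apply_eq_or_neg ψ.2 h.comm h.sq).resolve_right hc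
        rw [h4, sub_self]
    have h4 : ((2 * ∑ i, charDegree (χ i : G → ℂ) : ℕ) : ℂ) = Nat.card X := by
      rw [h3, ← Finset.sum_filter, ← hS, ← Finset.sum_coe_sort S]
      push_cast
      rw [Finset.mul_sum]
      refine Fintype.sum_equiv e _ _ fun i => ?_
      rw [charDegree_eq (χ i).2]
    exact_mod_cast h4
  · have h1 : ((8 * ((∏ i, charDegree (χ i : G → ℂ)) * D) : ℕ) : ℂ) = ((∏ i, (Nat.card X * k i) : ℕ) : ℂ) := by
      rw [Nat.cast_prod, ← hz', hDz]
      push_cast
      rfl
    exact_mod_cast h1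
  · intro hinj
    -- the characters are rational
    have hzne : z ≠ 1 := by
      rintro rfl
      exact h.smul_ne a (one_smul _ _)
    have hrat : ∀ s (g : G), ∃ q : ℚ, (χ s : G → ℂ) g = q := by
      intro s g
      rw [Cfsg.Agent.Characters.GaloisBasic.exists_rat_iff (isIrr_isCharacter (χ s).2)]
      intro n hn
      let ψ : IrrCharacter G := ⟨fun g => (χ s : G → ℂ) (g ^ n), isIrr_pow hn (χ s).2⟩
      have h1 : classInner (perm G X) (ψ : G → ℂ) = classInner (perm G X) (χ s : G → ℂ) := by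
        rw [classInner_def, classInner_def]
        congr 1
        refine Fintype.sum_equiv (powCoprime hn.symm) _ _ fun u => ?_
        show perm G X u * conj ((χ s : G → ℂ) (u ^ n)) =
          perm G X (u ^ n) * conj ((χ s : G → ℂ) (u ^ n))
        rw [perm_pow hn]
      rw [hinner, hinner, hχm] at h1
      have h2 : m ψ = 1 := by exact_mod_cast h1
      -- `n` is odd
      have hzn : z ^ n = z := by
        have ho : orderOf z = 2 := orderOf_eq_prime (by rw [pow_two, h.sq]) hzne
        have h3 : 2 ∣ Nat.card G := by rw [← ho]; exact orderOf_dvd_natCard z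
        have h4 : Odd n := by
          rw [← Nat.not_even_iff_odd, even_iff_two_dvd]
          intro h5
          have h6 := Nat.dvd_gcd h5 h3
          rw [hn] at h6
          omega
        obtain ⟨j, rfl⟩ := h4
        rw [pow_succ, pow_mul, pow_two, h.sq, one_pow, one_mul]
      have hψz : (ψ : G → ℂ) z = - (ψ : G → ℂ) 1 := by
        show (χ s : G → ℂ) (z ^ n) = - (χ s : G → ℂ) (1 ^ n)
        rw [hzn, one_pow, hχz]
      obtain ⟨t, ht⟩ := hχsurj ψ hψz h2
      have h3 : s = t := by
        apply hinj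
        show charDegree (χ s : G → ℂ) = charDegree (χ t : G → ℂ)
        rw [ht]
        unfold charDegree
        show _ = ⌊(((χ s : G → ℂ) (1 ^ n))).re⌋₊
        rw [one_pow]
      rw [← h3] at ht
      exact (congrFun (congrArg Subtype.val ht) g).symm
    have hErat : ∀ s i, ∃ q : ℚ, Q s i = q := by
      intro s i
      choose q hq using hrat s
      refine ⟨q 1 / Nat.card G * ∑ g : G, if g • b i = a then q g else 0, ?_⟩
      show E (χ s : G → ℂ) a (b i) = _
      unfold E
      push_cast
      rw [hq 1]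
      congr 1
      refine Finset.sum_congr rfl fun g _ => ?_
      by_cases hc : g • b i = a
      · rw [if_pos hc, if_pos hc, hq g, map_ratCast]
      · rw [if_neg hc, if_neg hc]
        simp
    choose q hq using hErat
    have h1 : Q.det = ((Matrix.of q).det : ℚ) := by
      have h2 : Q = (Matrix.of q).map (Rat.castHom ℂ) := by
        ext s i
        rw [hq s i]
        rfl
      rw [h2, ← RingHom.mapMatrix_apply, ← RingHom.map_det]
      rfl
    have h3 : P'.det = ((((Matrix.of q).det)⁻¹ / 8 : ℚ) : ℂ) := by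
      have h4 : P.det = (((Matrix.of q).det)⁻¹ : ℚ) := by
        rw [Rat.cast_inv, ← h1]
        exact eq_inv_of_mul_eq_one_left hPQdet
      rw [Rat.cast_div, ← h4, hPdet8]
      push_cast
      ring
    have h2 : ((D : ℚ)) = (((Matrix.of q).det)⁻¹ / 8) * (((Matrix.of q).det)⁻¹ / 8) := by
      have h4 : ((D : ℚ) : ℂ) = (((((Matrix.of q).det)⁻¹ / 8) * (((Matrix.of q).det)⁻¹ / 8) : ℚ) : ℂ) := by
        rw [Rat.cast_mul, ← h3, Rat.cast_natCast]
        have h5 : conj P'.det = P'.det := by rw [h3, map_ratCast]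
        rw [h5] at hDz
        rw [hDz]
        push_cast
        rfl
      exact_mod_cast h4
    rw [← Rat.isSquare_natCast_iff]
    exact ⟨_, h2⟩

end main

end Cfsg.Agent.H803.Rim
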